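import Cfsg.Agent.H813.Rg.ESetup

/-!
# S3691, rows `E₆`, `²E₆`, `E₇`, `E₈`: the classes (helper813)
-/

set_option autoImplicit false

namespace Cfsg.Agent.H813.Rg

open Cfsg Subgroup Cfsg.Lie Cfsg.Agent.H454.Reg Cfsg.Agent.H73.Rg Cfsg.Agent.H436 Cfsg.Agent.H56.Exc

universe u v

variable {p f : ℕ}

section

variable {F : Type u} [Field F] [Fintype F]

theorem two_le_int (hp : p.Prime) (hf : 1 ≤ f) : (2 : ℤ) ≤ ((p ^ f : ℕ) : ℤ) := by
  have : 2 ≤ p ^ f := hp.two_le.trans (Nat.le_self_pow (by omega) p)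
  exact_mod_cast this

/-- `E₈` : the classes 20, 24, 30 -/
theorem cl_E8 (hp : p.Prime) (hf : 1 ≤ f) (hF : Fintype.card F = p ^ f) {c : ℕ} (hc : c = 20 ∨ c = 24 ∨ c = 30) :
    Cl p f ↥(chevE8.group F) c := by
  have := Fact.mk hp
  have hq2 := two_le_int hp hf
  have hc5 : 5 ≤ c := by omega
  have hmono : ∀ i j : ℕ, i ≤ j → ((p ^ f : ℕ) : ℤ) ^ i ≤ ((p ^ f : ℕ) : ℤ) ^ j := fun i j hij =>
    pow_le_pow_right₀ (by omega) hij
  refine ⟨?_, fun r hr => ?_, fun r hr => ?_⟩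
  · refine PP_dvd_card (d := 1) hp hf hc5 (one_dvd _) ?_
    rw [one_mul]
    refine Int.natCast_dvd_natCast.1 ?_
    rw [ord_E8 hF]
    rcases hc with rfl | rfl | rfl
    · exact ((int_dvd hp hf (by norm_num) (dvd_refl 20)).mul_left _ |>.mul_right _).mul_right _
    · exact ((int_dvd hp hf (by norm_num) (dvd_refl 24)).mul_left _).mul_right _
    · exact (int_dvd hp hf (by norm_num) (dvd_refl 30)).mul_left _
  · rw [H70.OutE.card_out_E8 hF]
    have := not_dvd_out (d := 1) hp hf hc5 (one_dvd _) hr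
    rwa [one_mul] at this
  · have hr' := prim_of_prim hf hr
    intro P hP
    rcases hc with rfl | rfl | rfl
    · obtain ⟨m, hm⟩ := Int.eq_ofNat_of_zero_le (a := 1 - ((p ^ f : ℕ) : ℤ) ^ 2 + ((p ^ f : ℕ) : ℤ) ^ 4 - ((p ^ f : ℕ) : ℤ) ^ 6 +
        ((p ^ f : ℕ) : ℤ) ^ 8) (by have := hmono 2 4 (by norm_num); have := hmono 6 8 (by norm_num); linarith)
      exact (big_E8_20 hF hm.symm hr').isCyclic_of_isPGroup hP
    · obtain ⟨m, hm⟩ := Int.eq_ofNat_of_zero_le (a := 1 - ((p ^ f : ℕ) : ℤ) ^ 4 + ((p ^ f : ℕ) : ℤ) ^ 8)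
        (by have := hmono 4 8 (by norm_num); linarith)
      exact (big_E8_24 hF hm.symm hr').isCyclic_of_isPGroup hP
    · obtain ⟨m, hm⟩ := Int.eq_ofNat_of_zero_le (a := 1 + ((p ^ f : ℕ) : ℤ) - ((p ^ f : ℕ) : ℤ) ^ 3 - ((p ^ f : ℕ) : ℤ) ^ 4 -
        ((p ^ f : ℕ) : ℤ) ^ 5 + ((p ^ f : ℕ) : ℤ) ^ 7 + ((p ^ f : ℕ) : ℤ) ^ 8) (by
          have h1 := hmono 3 4 (by norm_num)
          have h2 := hmono 5 7 (by norm_num)
          have h3 := hmono 5 8 (by norm_num)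
          have h4 : 2 * ((p ^ f : ℕ) : ℤ) ^ 4 ≤ ((p ^ f : ℕ) : ℤ) ^ 5 := by
            rw [pow_succ _ 4, mul_comm]
            exact mul_le_mul_of_nonneg_left hq2 (by positivity)
          linarith)
      exact (big_E8_30 hF hm.symm hr').isCyclic_of_isPGroup hP

/-- `E₇` : the classes 7, 9, 14, 18 -/
theorem cl_E7 (hp : p.Prime) (hf : 1 ≤ f) (hF : Fintype.card F = p ^ f) {c : ℕ} (hc : c = 7 ∨ c = 9 ∨ c = 14 ∨ c = 18) :
    Cl p f ↥(chevE7.group F) c := by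
  have := Fact.mk hp
  have hq2 := two_le_int hp hf
  have hc5 : 5 ≤ c := by omega
  have hg6 : Nat.gcd 2 (p ^ f - 1) ∣ 6 := (Nat.gcd_dvd_left _ _).trans (by norm_num)
  have hmono : ∀ i j : ℕ, i ≤ j → ((p ^ f : ℕ) : ℤ) ^ i ≤ ((p ^ f : ℕ) : ℤ) ^ j := fun i j hij =>
    pow_le_pow_right₀ (by omega) hij
  refine ⟨?_, fun r hr => ?_, fun r hr => ?_⟩
  · refine PP_dvd_card (d := Nat.gcd 2 (p ^ f - 1)) hp hf hc5 hg6 ?_
    refine Int.natCast_dvd_natCast.1 ?_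
    rw [Nat.cast_mul, ord_E7 hF]
    rcases hc with rfl | rfl | rfl | rfl
    · exact ((int_dvd hp hf (by norm_num) (show 7 ∣ 14 by norm_num)).mul_left _).mul_right _
    · exact (int_dvd hp hf (by norm_num) (show 9 ∣ 18 by norm_num)).mul_left _
    · exact ((int_dvd hp hf (by norm_num) (dvd_refl 14)).mul_left _).mul_right _
    · exact (int_dvd hp hf (by norm_num) (dvd_refl 18)).mul_left _
  · rw [H70.OutE.card_out_E7 hF]
    exact not_dvd_out hp hf hc5 hg6 hr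
  · have hr' := prim_of_prim hf hr
    intro P hP
    rcases hc with rfl | rfl | rfl | rfl
    · obtain ⟨m, hm⟩ := Int.eq_ofNat_of_zero_le (a := ((p ^ f : ℕ) : ℤ) ^ 7 - 1) (by
        have := hmono 0 7 (by norm_num); linarith)
      exact (big_E7_7 hF hm.symm hr').isCyclic_of_isPGroup hP
    · obtain ⟨m, hm⟩ := Int.eq_ofNat_of_zero_le (a := (1 + ((p ^ f : ℕ) : ℤ) ^ 3 + ((p ^ f : ℕ) : ℤ) ^ 6) * (((p ^ f : ℕ) : ℤ) - 1))
        (mul_nonneg (by positivity) (by linarith))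
      exact (big_E7_9 hF hm.symm hr').isCyclic_of_isPGroup hP
    · obtain ⟨m, hm⟩ := Int.eq_ofNat_of_zero_le (a := ((p ^ f : ℕ) : ℤ) ^ 7 + 1) (by positivity)
      exact (big_E7_14 hF hm.symm hr').isCyclic_of_isPGroup hP
    · obtain ⟨m, hm⟩ := Int.eq_ofNat_of_zero_le (a := (1 - ((p ^ f : ℕ) : ℤ) ^ 3 + ((p ^ f : ℕ) : ℤ) ^ 6) * (((p ^ f : ℕ) : ℤ) + 1))
        (mul_nonneg (by have := hmono 3 6 (by norm_num); linarith) (by linarith))
      exact (big_E7_18 hF hm.symm hr').isCyclic_of_isPGroup hP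

/-- `E₆` : the classes 8, 9, 12 -/
theorem cl_E6 (hp : p.Prime) (hf : 1 ≤ f) (hF : Fintype.card F = p ^ f) {c : ℕ} (hc : c = 8 ∨ c = 9 ∨ c = 12) :
    Cl p f ↥(chevE6.group F) c := by
  have := Fact.mk hp
  have hq2 := two_le_int hp hf
  have hc5 : 5 ≤ c := by omega
  have hg6 : Nat.gcd 3 (p ^ f - 1) ∣ 6 := (Nat.gcd_dvd_left _ _).trans (by norm_num)
  have hmono : ∀ i j : ℕ, i ≤ j → ((p ^ f : ℕ) : ℤ) ^ i ≤ ((p ^ f : ℕ) : ℤ) ^ j := fun i j hij =>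
    pow_le_pow_right₀ (by omega) hij
  refine ⟨?_, fun r hr => ?_, fun r hr => ?_⟩
  · refine PP_dvd_card (d := Nat.gcd 3 (p ^ f - 1)) hp hf hc5 hg6 ?_
    refine Int.natCast_dvd_natCast.1 ?_
    rw [Nat.cast_mul, ord_E6 hF]
    rcases hc with rfl | rfl | rfl
    · exact (((int_dvd hp hf (by norm_num) (dvd_refl 8)).mul_left _).mul_right _).mul_right _
    · exact ((int_dvd hp hf (by norm_num) (dvd_refl 9)).mul_left _).mul_right _
    · exact (int_dvd hp hf (by norm_num) (dvd_refl 12)).mul_left _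
  · rw [H70.OutE.card_out_E6 hF]
    exact not_dvd_out hp hf hc5 (Nat.mul_dvd_mul_left 2 (Nat.gcd_dvd_left 3 (p ^ f - 1))) hr
  · have hr' := prim_of_prim hf hr
    intro P hP
    rcases hc with rfl | rfl | rfl
    · obtain ⟨m, hm⟩ := Int.eq_ofNat_of_zero_le (a := (1 + ((p ^ f : ℕ) : ℤ) ^ 4) * (((p ^ f : ℕ) : ℤ) ^ 2 - 1))
        (mul_nonneg (by positivity) (by have := hmono 0 2 (by norm_num); linarith))
      exact (H190.Odd.big_E6_8 hF hm.symm hr').isCyclic_of_isPGroup hP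
    · obtain ⟨m, hm⟩ := Int.eq_ofNat_of_zero_le (a := 1 + ((p ^ f : ℕ) : ℤ) ^ 3 + ((p ^ f : ℕ) : ℤ) ^ 6) (by positivity)
      exact (big_E6_9 hF hm.symm hr').isCyclic_of_isPGroup hP
    · obtain ⟨m, hm⟩ := Int.eq_ofNat_of_zero_le (a := (1 - ((p ^ f : ℕ) : ℤ) ^ 2 + ((p ^ f : ℕ) : ℤ) ^ 4) *
        (1 + ((p ^ f : ℕ) : ℤ) + ((p ^ f : ℕ) : ℤ) ^ 2)) (mul_nonneg (by have := hmono 2 4 (by norm_num); linarith) (by positivity))
      exact (big_E6_12 hF hm.symm hr').isCyclic_of_isPGroup hP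

/-- `²E₆` : the classes 8, 12, 18 -/
theorem cl_TE6 (hp : p.Prime) (hf : 1 ≤ f) (hF : Fintype.card F = (p ^ f) ^ 2) {c : ℕ} (hc : c = 8 ∨ c = 12 ∨ c = 18) :
    Cl p f ↥(twistedE6 F (p ^ f)) c := by
  have := Fact.mk hp
  have hq2 := two_le_int hp hf
  have hc5 : 5 ≤ c := by omega
  have hqq : IsPrimePow (p ^ f) := hp.isPrimePow.pow (by omega)
  have hF' : Fintype.card F = p ^ (2 * f) := by rw [hF, ← pow_mul, mul_comm]
  have hch : CharP F p := by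
    obtain ⟨ℓ, hchar⟩ := CharP.exists F
    have hl : Fact ℓ.Prime := ⟨CharP.char_is_prime F ℓ⟩
    obtain ⟨m, hm, hcard⟩ := FiniteField.card F ℓ
    rw [hF'] at hcard
    have h1 : ℓ ∣ p ^ (2 * f) := by rw [hcard]; exact dvd_pow_self ℓ m.ne_zero
    have h3 : ℓ = p := (Nat.prime_dvd_prime_iff_eq hm hp).1 (hm.dvd_of_dvd_pow h1)
    subst h3
    exact hchar
  have hg6 : Nat.gcd 3 (p ^ f + 1) ∣ 6 := (Nat.gcd_dvd_left _ _).trans (by norm_num)
  have hmono : ∀ i j : ℕ, i ≤ j → ((p ^ f : ℕ) : ℤ) ^ i ≤ ((p ^ f : ℕ) : ℤ) ^ j := fun i j hij =>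
    pow_le_pow_right₀ (by omega) hij
  refine ⟨?_, fun r hr => ?_, fun r hr => ?_⟩
  · refine PP_dvd_card (d := Nat.gcd 3 (p ^ f + 1)) hp hf hc5 hg6 ?_
    refine Int.natCast_dvd_natCast.1 ?_
    rw [Nat.cast_mul, ord_TE6 hqq hF]
    rcases hc with rfl | rfl | rfl
    · exact (((int_dvd hp hf (by norm_num) (dvd_refl 8)).mul_left _).mul_right _).mul_right _
    · exact (int_dvd hp hf (by norm_num) (dvd_refl 12)).mul_left _
    · exact ((int_dvd_add hp hf (m := 9) (by norm_num)).mul_left _).mul_right _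
  · rw [Cfsg.Agent.S2130.result p f hF' hf]
    exact not_dvd_out hp hf hc5 (Nat.mul_dvd_mul_left 2 (Nat.gcd_dvd_left 3 (p ^ f + 1))) hr
  · have hr' := prim_of_prim hf hr
    intro P hP
    rcases hc with rfl | rfl | rfl
    · obtain ⟨m, hm⟩ := Int.eq_ofNat_of_zero_le (a := (1 + ((p ^ f : ℕ) : ℤ) ^ 4) * (((p ^ f : ℕ) : ℤ) ^ 2 - 1))
        (mul_nonneg (by positivity) (by have := hmono 0 2 (by norm_num); linarith))
      exact (H190.Odd.big_TE6_8 hqq hF hm.symm hr').isCyclic_of_isPGroup hP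
    · obtain ⟨m, hm⟩ := Int.eq_ofNat_of_zero_le (a := (1 - ((p ^ f : ℕ) : ℤ) ^ 2 + ((p ^ f : ℕ) : ℤ) ^ 4) *
        (1 - ((p ^ f : ℕ) : ℤ) + ((p ^ f : ℕ) : ℤ) ^ 2)) (mul_nonneg (by have := hmono 2 4 (by norm_num); linarith)
        (by have := hmono 1 2 (by norm_num); rw [pow_one] at this; linarith))
      exact (big_TE6_12 hqq hF hm.symm hr').isCyclic_of_isPGroup hP
    · obtain ⟨m, hm⟩ := Int.eq_ofNat_of_zero_le (a := 1 - ((p ^ f : ℕ) : ℤ) ^ 3 + ((p ^ f : ℕ) : ℤ) ^ 6)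
        (by have := hmono 3 6 (by norm_num); linarith)
      exact (big_TE6_18 hqq hF hm.symm hr').isCyclic_of_isPGroup hP

end

end Cfsg.Agent.H813.Rg
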