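import Cfsg.Agent.H813.Rg.ECl

/-!
# S3691, rows `E₇`, `E₈`: no exact factorization (helper813)

The subgroups `X ∩ T`, `Y ∩ T` of an exact factorization: every class goes to one of them; the classification of the subgroups
containing half of two classes (hypotheses `k_i`) gives a contradiction.
-/

set_option autoImplicit false

namespace Cfsg.Agent.H813.Rg

open Cfsg Subgroup Cfsg.Lie Cfsg.Agent.H454.Reg Cfsg.Agent.H73.Rg Cfsg.Agent.H436 Cfsg.Agent.H56.Exc

universe u v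

variable {p f : ℕ}

theorem hoff2 {K : Type v} [Group K] {B : Subgroup K} {a b : ℕ} (ha : HAt p f a B) (hb : HAt p f b B) : HOff p f [a, b] B := by
  intro c hc
  rcases List.mem_cons.1 hc with rfl | hc
  · exact ha
  · rw [List.mem_singleton] at hc
    subst hc
    exact hb

/-- **`E₈`** -/
theorem no_fac_E8 {F : Type v} [Field F] [Fintype F] (hp : p.Prime) (hf : 1 ≤ f) (hF : Fintype.card F = p ^ f)
    (k1 : ∀ B : Subgroup ↥(chevE8.group F), HOff p f [24, 30] B → B = ⊤)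
    (k2 : ∀ B : Subgroup ↥(chevE8.group F), HOff p f [20, 30] B → B = ⊤)
    (k3 : ∀ B : Subgroup ↥(chevE8.group F), HOff p f [20, 24] B → B = ⊤)
    {G : Type u} [Group G] [Finite G] {T X Y : Subgroup G} (h : Fac T X Y) (e : T ≃* ↥(chevE8.group F)) : False := by
  have hX := map_ne_top_left h e
  have hY := map_ne_top_right h e
  rcases (cl_E8 hp hf hF (Or.inl rfl)).fac h e hp hf (by norm_num) with h20 | h20 <;>
  rcases (cl_E8 hp hf hF (Or.inr (Or.inl rfl))).fac h e hp hf (by norm_num) with h24 | h24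
  · exact hX (k3 _ (hoff2 h20 h24))
  · rcases (cl_E8 hp hf hF (Or.inr (Or.inr rfl))).fac h e hp hf (by norm_num) with h30 | h30
    · exact hX (k2 _ (hoff2 h20 h30))
    · exact hY (k1 _ (hoff2 h24 h30))
  · rcases (cl_E8 hp hf hF (Or.inr (Or.inr rfl))).fac h e hp hf (by norm_num) with h30 | h30
    · exact hX (k1 _ (hoff2 h24 h30))
    · exact hY (k2 _ (hoff2 h20 h30))
  · exact hY (k3 _ (hoff2 h20 h24))

/-- the classes 5 of `E₇(q)` and `E₆(q)`, 10 of `²E₆(q)`: one prime -/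
theorem five_E7 {F : Type v} [Field F] [Fintype F] (hp : p.Prime) (hf : 1 ≤ f) (hF : Fintype.card F = p ^ f) {s : ℕ}
    (hs : Prim p (f * 5) s) : s ∣ Nat.card ↥(chevE7.group F) ∧ ¬ s ∣ Nat.card (Cfsg.Out ↥(chevE7.group F)) := by
  have := Fact.mk hp
  have hg6 : Nat.gcd 2 (p ^ f - 1) ∣ 6 := (Nat.gcd_dvd_left _ _).trans (by norm_num)
  refine ⟨(dvd_PP hp.two_le (by omega) hs).trans ?_, ?_⟩
  · refine PP_dvd_card (d := Nat.gcd 2 (p ^ f - 1)) hp hf le_rfl hg6 ?_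
    refine Int.natCast_dvd_natCast.1 ?_
    rw [Nat.cast_mul, ord_E7 hF]
    exact ((((int_dvd hp hf (by norm_num) (show 5 ∣ 10 by norm_num)).mul_left _).mul_right _).mul_right _).mul_right _
  · rw [H70.OutE.card_out_E7 hF]
    exact not_dvd_out hp hf le_rfl hg6 hs

theorem five_E6 {F : Type v} [Field F] [Fintype F] (hp : p.Prime) (hf : 1 ≤ f) (hF : Fintype.card F = p ^ f) {s : ℕ}
    (hs : Prim p (f * 5) s) : s ∣ Nat.card ↥(chevE6.group F) ∧ ¬ s ∣ Nat.card (Cfsg.Out ↥(chevE6.group F)) := by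
  have := Fact.mk hp
  have hg6 : Nat.gcd 3 (p ^ f - 1) ∣ 6 := (Nat.gcd_dvd_left _ _).trans (by norm_num)
  refine ⟨(dvd_PP hp.two_le (by omega) hs).trans ?_, ?_⟩
  · refine PP_dvd_card (d := Nat.gcd 3 (p ^ f - 1)) hp hf le_rfl hg6 ?_
    refine Int.natCast_dvd_natCast.1 ?_
    rw [Nat.cast_mul, ord_E6 hF]
    exact (((((int_dvd hp hf (by norm_num) (dvd_refl 5)).mul_left _).mul_right _).mul_right _).mul_right _).mul_right _
  · rw [H70.OutE.card_out_E6 hF]
    exact not_dvd_out hp hf le_rfl (Nat.mul_dvd_mul_left 2 (Nat.gcd_dvd_left 3 (p ^ f - 1))) hs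

theorem ten_TE6 {F : Type v} [Field F] [Fintype F] (hp : p.Prime) (hf : 1 ≤ f) (hF : Fintype.card F = (p ^ f) ^ 2) {s : ℕ}
    (hs : Prim p (f * 10) s) : s ∣ Nat.card ↥(twistedE6 F (p ^ f)) ∧ ¬ s ∣ Nat.card (Cfsg.Out ↥(twistedE6 F (p ^ f))) := by
  have := Fact.mk hp
  have hqq : IsPrimePow (p ^ f) := hp.isPrimePow.pow (by omega)
  have hF' : Fintype.card F = p ^ (2 * f) := by rw [hF, ← pow_mul, mul_comm]
  have hch : CharP F p := by
    obtain ⟨ℓ, hchar⟩ := CharP.exists F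
    have hl : Fact ℓ.Prime := ⟨CharP.char_is_prime F ℓ⟩
    obtain ⟨m, hm, hcard⟩ := FiniteField.card F ℓ
    rw [hF'] at hcard
    have h1 : ℓ ∣ p ^ (2 * f) := by rw [hcard]; exact dvd_pow_self ℓ m.ne_zero
    have h3 : ℓ = p := (Nat.prime_dvd_prime_iff_eq hm hp).1 (hm.dvd_of_dvd_pow h1)
    subst h3
    exact hchar
  have hg6 : Nat.gcd 3 (p ^ f + 1) ∣ 6 := (Nat.gcd_dvd_left _ _).trans (by norm_num)
  refine ⟨(dvd_PP hp.two_le (by omega) hs).trans ?_, ?_⟩
  · refine PP_dvd_card (d := Nat.gcd 3 (p ^ f + 1)) hp hf (by norm_num) hg6 ?_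
    refine Int.natCast_dvd_natCast.1 ?_
    rw [Nat.cast_mul, ord_TE6 hqq hF]
    exact (((((int_dvd_add hp hf (m := 5) (by norm_num)).mul_left _).mul_right _).mul_right _).mul_right _).mul_right _
  · rw [Cfsg.Agent.S2130.result p f hF' hf]
    exact not_dvd_out hp hf (by norm_num) (Nat.mul_dvd_mul_left 2 (Nat.gcd_dvd_left 3 (p ^ f + 1))) hs

/-- a `p`-primitive prime of class `c` exists -/
theorem exists_prim_class (hp : p.Prime) (hf : 1 ≤ f) {c : ℕ} (hc : 5 ≤ c) (h6 : c ≠ 6) : ∃ s, Prim p (f * c) s := by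
  refine exists_prim hp.two_le (by nlinarith) ?_
  rintro ⟨-, h⟩
  rcases Nat.lt_or_ge f 2 with h1 | h1
  · have : f = 1 := by omega
    subst this
    omega
  · nlinarith

theorem no_fac_E7_aux {F : Type v} [Field F] [Fintype F] (hp : p.Prime) (hf : 1 ≤ f) (hF : Fintype.card F = p ^ f)
    (k1 : ∀ B : Subgroup ↥(chevE7.group F), HOff p f [18, 14] B → B = ⊤)
    (k2 : ∀ B : Subgroup ↥(chevE7.group F), HOff p f [18, 7] B → B = ⊤)
    (k3 : ∀ B : Subgroup ↥(chevE7.group F), HOff p f [9, 14] B → B = ⊤)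
    (k4 : ∀ s, Prim p (f * 5) s → ∀ B : Subgroup ↥(chevE7.group F), HOff p f [9, 18] B → s ∣ Nat.card B → B = ⊤)
    (k5 : ∀ s, Prim p (f * 5) s → ∀ B : Subgroup ↥(chevE7.group F), HOff p f [7, 14] B → s ∣ Nat.card B → B = ⊤)
    {G : Type u} [Group G] [Finite G] {T X Y : Subgroup G} (h : Fac T X Y) (e : T ≃* ↥(chevE7.group F))
    (h18 : HAt p f 18 ((X.subgroupOf T).map e.toMonoidHom)) : False := by
  have hX := map_ne_top_left h e
  have hY := map_ne_top_right h e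
  have h14 := ((cl_E7 hp hf hF (Or.inr (Or.inr (Or.inl rfl)))).fac h e hp hf (by norm_num)).resolve_left
    fun h14 => hX (k1 _ (hoff2 h18 h14))
  have h7 := ((cl_E7 hp hf hF (Or.inl rfl)).fac h e hp hf (by norm_num)).resolve_left
    fun h7 => hX (k2 _ (hoff2 h18 h7))
  have h9 := ((cl_E7 hp hf hF (Or.inr (Or.inl rfl))).fac h e hp hf (by norm_num)).resolve_right
    fun h9 => hY (k3 _ (hoff2 h9 h14))
  obtain ⟨s, hs⟩ := exists_prim_class hp hf (c := 5) le_rfl (by norm_num)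
  obtain ⟨h1, h2⟩ := five_E7 hp hf hF hs
  rcases prime_of_fac h e hs.prime h1 (by rw [card_out_congr e]; exact h2) with h3 | h3
  · exact hX (k4 s hs _ (hoff2 h9 h18) h3)
  · exact hY (k5 s hs _ (hoff2 h7 h14) h3)

/-- **`E₇`** -/
theorem no_fac_E7 {F : Type v} [Field F] [Fintype F] (hp : p.Prime) (hf : 1 ≤ f) (hF : Fintype.card F = p ^ f)
    (k1 : ∀ B : Subgroup ↥(chevE7.group F), HOff p f [18, 14] B → B = ⊤)
    (k2 : ∀ B : Subgroup ↥(chevE7.group F), HOff p f [18, 7] B → B = ⊤)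
    (k3 : ∀ B : Subgroup ↥(chevE7.group F), HOff p f [9, 14] B → B = ⊤)
    (k4 : ∀ s, Prim p (f * 5) s → ∀ B : Subgroup ↥(chevE7.group F), HOff p f [9, 18] B → s ∣ Nat.card B → B = ⊤)
    (k5 : ∀ s, Prim p (f * 5) s → ∀ B : Subgroup ↥(chevE7.group F), HOff p f [7, 14] B → s ∣ Nat.card B → B = ⊤)
    {G : Type u} [Group G] [Finite G] {T X Y : Subgroup G} (h : Fac T X Y) (e : T ≃* ↥(chevE7.group F)) : False := by
  rcases (cl_E7 hp hf hF (Or.inr (Or.inr (Or.inr rfl)))).fac h e hp hf (by norm_num) with h18 | h18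
  · exact no_fac_E7_aux hp hf hF k1 k2 k3 k4 k5 h e h18
  · exact no_fac_E7_aux hp hf hF k1 k2 k3 k4 k5 h.symm e h18

end Cfsg.Agent.H813.Rg
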