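import Cfsg.Agent.H813.Rg.Half
import Cfsg.Agent.H190.Odd.Big8
import Cfsg.Agent.S2123
import Cfsg.Agent.S2124
import Cfsg.Agent.S2125
import Cfsg.Agent.S2130

/-!
# S3691, rows `E₆`, `²E₆`, `E₇`, `E₈`: the primitive primes (helper813)

`Cl p f K c` : `PP p (f c)` divides `|K|`, the primes `r` with `Prim p (f c) r` do not divide `|Out K|` and have cyclic
Sylow subgroups in `K`. Rows: `E₈` (20, 24, 30), `E₇` (7, 9, 14, 18), `E₆` (8, 9, 12), `²E₆` (8, 12, 18).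
-/

set_option autoImplicit false

namespace Cfsg.Agent.H813.Rg

open Cfsg Subgroup Cfsg.Lie Cfsg.Agent.H454.Reg Cfsg.Agent.H73.Rg Cfsg.Agent.H436 Cfsg.Agent.H56.Exc

universe u v

/-- the class `c` of `K` -/
structure Cl (p f : ℕ) (K : Type v) [Group K] (c : ℕ) : Prop where
  dvd : PP p (f * c) ∣ Nat.card K
  out : ∀ r, Prim p (f * c) r → ¬ r ∣ Nat.card (Cfsg.Out K)
  cyc : ∀ r, Prim p (f * c) r → ∀ P : Subgroup K, IsPGroup r P → IsCyclic P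

variable {G : Type u} [Group G] [Finite G] {T X Y : Subgroup G} {K : Type v} [Group K] {p f c : ℕ}

theorem Cl.fac (hcl : Cl p f K c) (h : Fac T X Y) (e : T ≃* K) (hp : p.Prime) (hf : 1 ≤ f) (hc : 5 ≤ c) :
    HAt p f c ((X.subgroupOf T).map e.toMonoidHom) ∨ HAt p f c ((Y.subgroupOf T).map e.toMonoidHom) :=
  half_of_fac h e hp hf hc hcl.dvd (fun r hr => by rw [card_out_congr e]; exact hcl.out r hr) hcl.cyc

/-- a number `d k` with `d ∣ 6`, `k = p`-exponent, is prime to the primitive primes -/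
theorem not_dvd_out {d r : ℕ} (hp : p.Prime) (hf : 1 ≤ f) (hc : 5 ≤ c) (hd : d ∣ 6) (hr : Prim p (f * c) r) : ¬ r ∣ d * f := by
  have h1 := lt_of_prim hp.two_le hr
  have h5 : 5 ≤ f * c := by nlinarith
  have hff : f ≤ f * c := Nat.le_mul_of_pos_right f (by omega)
  intro h2
  rcases hr.prime.dvd_mul.1 h2 with h3 | h3
  · have h4 : r ∣ 2 * 3 := h3.trans hd
    rcases hr.prime.dvd_mul.1 h4 with h6 | h6
    · have := Nat.le_of_dvd (by norm_num) h6; omega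
    · have := Nat.le_of_dvd (by norm_num) h6; omega
  · have := Nat.le_of_dvd (by omega) h3; omega

/-- `PP p (f c)` divides `|K|` if it divides `d |K|`, `d ∣ 6` -/
theorem PP_dvd_card {d N : ℕ} (hp : p.Prime) (hf : 1 ≤ f) (hc : 5 ≤ c) (hd : d ∣ 6) (h : PP p (f * c) ∣ d * N) :
    PP p (f * c) ∣ N := by
  have h5 : 5 ≤ f * c := by nlinarith
  refine Nat.Coprime.dvd_of_dvd_mul_left ?_ h
  refine Nat.Coprime.coprime_dvd_right hd ?_
  refine Nat.Coprime.symm (Nat.coprime_of_dvd fun r hr h1 h2 => ?_)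
  have hr' := prim_of_dvd_PP hp.two_le (by omega) hr h2
  exact not_dvd_out hp hf hc dvd_rfl hr' (h1.mul_right f)

/-- the `p`-primitive part divides `q ^ m - 1` for `c ∣ m` -/
theorem PP_dvd_pow (hp : p.Prime) (hf : 1 ≤ f) (hc : 5 ≤ c) {m : ℕ} (hm : c ∣ m) : PP p (f * c) ∣ (p ^ f) ^ m - 1 := by
  have h5 : 5 ≤ f * c := by nlinarith
  refine (PP_dvd hp.one_le (by omega)).trans ?_
  rw [← pow_mul]
  exact Nat.pow_sub_one_dvd_pow_sub_one p (Nat.mul_dvd_mul_left f hm)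

theorem int_dvd (hp : p.Prime) (hf : 1 ≤ f) (hc : 5 ≤ c) {m : ℕ} (hm : c ∣ m) :
    ((PP p (f * c) : ℕ) : ℤ) ∣ ((p ^ f : ℕ) : ℤ) ^ m - 1 := by
  have h1 := PP_dvd_pow hp hf hc hm
  have h2 : (((p ^ f) ^ m - 1 : ℕ) : ℤ) = ((p ^ f : ℕ) : ℤ) ^ m - 1 := by
    rw [Nat.cast_sub (Nat.one_le_pow _ _ (Nat.pow_pos hp.pos))]
    push_cast
    rfl
  rw [← h2]
  exact Int.natCast_dvd_natCast.2 h1

/-- `PP p (2 f m)` divides `q ^ m + 1` -/
theorem int_dvd_add (hp : p.Prime) (hf : 1 ≤ f) {m : ℕ} (hm : 3 ≤ m) :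
    ((PP p (f * (2 * m)) : ℕ) : ℤ) ∣ ((p ^ f : ℕ) : ℤ) ^ m + 1 := by
  have h5 : 5 ≤ f * (2 * m) := by nlinarith
  have hq1 : 1 ≤ (p ^ f) ^ m := Nat.one_le_pow _ _ (Nat.pow_pos hp.pos)
  have h1 := PP_dvd_pow hp hf (show 5 ≤ 2 * m by omega) (dvd_refl (2 * m))
  have h2 : (p ^ f) ^ (2 * m) - 1 = ((p ^ f) ^ m - 1) * ((p ^ f) ^ m + 1) := by
    rw [mul_comm 2 m, pow_mul ((p ^ f)) m 2, mul_comm, ← Nat.sq_sub_sq, one_pow]
  rw [h2] at h1
  have hcop : Nat.Coprime (PP p (f * (2 * m))) ((p ^ f) ^ m - 1) := by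
    refine Nat.Coprime.symm (Nat.coprime_of_dvd fun r hr h3 h4 => ?_)
    have hr' := prim_of_dvd_PP hp.two_le (by omega) hr h4
    rw [← pow_mul] at h3
    have h6 := (hr'.dvd_iff _).1 h3
    have h7 := Nat.le_of_dvd (Nat.mul_pos hf (by omega)) h6
    have h8 : f * (2 * m) = 2 * (f * m) := by ring
    have h9 : 0 < f * m := Nat.mul_pos hf (by omega)
    omega
  have h3 := hcop.dvd_of_dvd_mul_left h1
  have h4 : (((p ^ f) ^ m + 1 : ℕ) : ℤ) = ((p ^ f : ℕ) : ℤ) ^ m + 1 := by push_cast; rfl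
  rw [← h4]
  exact Int.natCast_dvd_natCast.2 h3

theorem prim_of_prim (hf : 1 ≤ f) {r : ℕ} (h : Prim p (f * c) r) : Prim (p ^ f) c r where
  prime := h.prime
  dvd_iff m := by
    rw [← pow_mul, h.dvd_iff]
    exact ⟨fun h1 => Nat.dvd_of_mul_dvd_mul_left hf h1, fun h1 => Nat.mul_dvd_mul_left f h1⟩
  not_dvd hd := h.not_dvd (h.prime.dvd_of_dvd_pow hd)

end Cfsg.Agent.H813.Rg
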