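import Cfsg.Agent.H454.Reg.Tools
import Cfsg.Agent.H73.Rg.HDefs
import Cfsg.Prelude.Def_KGroupFacts

/-!
# S3691, rows `E₆`, `²E₆`, `E₇`, `E₈`: reduction (helper813)

* `full_of_fac` : a prime `r` of `|X ∩ T|` with cyclic Sylow subgroups in `T`, prime to `|Out T|`, does not divide `|T : X ∩ T|`;
* `half_of_fac` : one of the factors contains half of the class `c`.
-/

set_option autoImplicit false

namespace Cfsg.Agent.H813.Rg

open Cfsg Subgroup Cfsg.Agent.H454.Reg Cfsg.Agent.H73.Rg Cfsg.Agent.H436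

universe u v

variable {G : Type u} [Group G] [Finite G] {T X Y : Subgroup G} {K : Type v} [Group K]

omit [Finite G] in
theorem card_map' (e : T ≃* K) (A : Subgroup T) : Nat.card (A.map e.toMonoidHom) = Nat.card A :=
  Nat.card_congr (A.equivMapOfInjective e.toMonoidHom e.injective).symm.toEquiv

omit [Finite G] in
theorem index_map' (e : T ≃* K) (A : Subgroup T) : (A.map e.toMonoidHom).index = A.index :=
  Subgroup.index_map_equiv A e

omit [Finite G] in
/-- cyclic `r`-subgroups, transport -/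
theorem cyc_of_equiv (e : T ≃* K) {r : ℕ} (h : ∀ P : Subgroup K, IsPGroup r P → IsCyclic P) (P : Subgroup T) (hP : IsPGroup r P) :
    IsCyclic P := by
  have h1 : IsPGroup r (P.map e.toMonoidHom) := hP.map _
  have h2 := h _ h1
  exact isCyclic_of_surjective (P.equivMapOfInjective e.toMonoidHom e.injective).symm
    (P.equivMapOfInjective e.toMonoidHom e.injective).symm.surjective

theorem full_of_fac (h : Fac T X Y) (e : T ≃* K) {r : ℕ} (hr : r.Prime) (hout : ¬ r ∣ Nat.card (Out T))
    (hcyc : ∀ P : Subgroup K, IsPGroup r P → IsCyclic P)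
    (hrA : r ∣ Nat.card ((X.subgroupOf T).map e.toMonoidHom)) : ¬ r ∣ ((X.subgroupOf T).map e.toMonoidHom).index := by
  rw [card_map'] at hrA
  rw [index_map']
  have h1 : ¬ r ∣ Nat.card (Y.subgroupOf T) := fun h2 => h.not_both hr (cyc_of_equiv e hcyc) hrA h2
  have h2 := h.val_eq hout
  rw [Nat.factorization_eq_zero_of_not_dvd h1, add_zero] at h2
  have h3 := (X.subgroupOf T).card_mul_index
  have h4 : Nat.card (X.subgroupOf T) ≠ 0 := Nat.card_pos.ne'
  have h5 : (X.subgroupOf T).index ≠ 0 := fun h6 => by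
    rw [h6, mul_zero] at h3
    exact Nat.card_pos.ne h3
  intro h6
  have h7 : 0 < (X.subgroupOf T).index.factorization r := hr.factorization_pos_of_dvd h5 h6
  rw [← h3, Nat.factorization_mul h4 h5, Finsupp.add_apply] at h2
  omega

/-- the product of the greatest common divisors -/
theorem le_gcd_mul (h : Fac T X Y) {N : ℕ} (hN : 0 < N) (hd : N ∣ Nat.card T) (hout : Nat.Coprime N (Nat.card (Out T))) :
    N ≤ Nat.gcd (Nat.card (X.subgroupOf T)) N * Nat.gcd (Nat.card (Y.subgroupOf T)) N := by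
  obtain ⟨a, -, ha, h1⟩ := h.card0
  have h2 : Nat.Coprime N a := Nat.Coprime.coprime_dvd_right ha hout
  have h3 : N ∣ Nat.card (X.subgroupOf T) * Nat.card (Y.subgroupOf T) := by
    rw [← h1] at hd
    exact h2.dvd_of_dvd_mul_right hd
  have h4 := Nat.gcd_mul_right_dvd_mul_gcd N (Nat.card (X.subgroupOf T)) (Nat.card (Y.subgroupOf T))
  rw [Nat.gcd_eq_left h3] at h4
  rw [Nat.gcd_comm _ N, Nat.gcd_comm _ N]
  exact Nat.le_of_dvd (Nat.mul_pos (Nat.gcd_pos_of_pos_left _ hN) (Nat.gcd_pos_of_pos_left _ hN)) h4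

/-- **B1.** One of the factors contains half of the class `c`. -/
theorem half_of_fac (h : Fac T X Y) (e : T ≃* K) {p f c : ℕ} (hp : p.Prime) (hf : 1 ≤ f) (hc : 5 ≤ c)
    (hd : PP p (f * c) ∣ Nat.card K) (hout : ∀ r, Prim p (f * c) r → ¬ r ∣ Nat.card (Out T))
    (hcyc : ∀ r, Prim p (f * c) r → ∀ P : Subgroup K, IsPGroup r P → IsCyclic P) :
    HAt p f c ((X.subgroupOf T).map e.toMonoidHom) ∨ HAt p f c ((Y.subgroupOf T).map e.toMonoidHom) := by
  have hfc : 3 ≤ f * c := by nlinarith
  have hN : 0 < PP p (f * c) := PP_pos hp.two_le (by omega)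
  have hcop : Nat.Coprime (PP p (f * c)) (Nat.card (Out T)) := by
    refine Nat.Coprime.symm (Nat.coprime_of_dvd fun r hr h1 h2 => ?_)
    exact hout r (prim_of_dvd_PP hp.two_le hfc hr h2) h1
  have hdT : PP p (f * c) ∣ Nat.card T := by rwa [Nat.card_congr e.toEquiv]
  have h1 := le_gcd_mul h hN hdT hcop
  rcases le_total (Nat.gcd (Nat.card (Y.subgroupOf T)) (PP p (f * c))) (Nat.gcd (Nat.card (X.subgroupOf T)) (PP p (f * c)))
    with h2 | h2
  · left
    refine ⟨fun r hr hd => full_of_fac h e hr.prime (hout r hr) (hcyc r hr) hd, ?_⟩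
    rw [card_map', sq]
    exact h1.trans (Nat.mul_le_mul_left _ h2)
  · right
    refine ⟨fun r hr hd => full_of_fac h.symm e hr.prime (hout r hr) (hcyc r hr) hd, ?_⟩
    rw [card_map', sq]
    exact h1.trans (Nat.mul_le_mul_right _ h2)

/-- **B1'.** a single prime divides one of the factors -/
theorem prime_of_fac (h : Fac T X Y) (e : T ≃* K) {s : ℕ} (hs : s.Prime) (hd : s ∣ Nat.card K)
    (hout : ¬ s ∣ Nat.card (Out T)) :
    s ∣ Nat.card ((X.subgroupOf T).map e.toMonoidHom) ∨ s ∣ Nat.card ((Y.subgroupOf T).map e.toMonoidHom) := by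
  rw [card_map', card_map']
  exact h.prime_dvd hs (by rwa [Nat.card_congr e.toEquiv]) hout

omit [Finite G] in
theorem map_ne_top_left (h : Fac T X Y) (e : T ≃* K) : (X.subgroupOf T).map e.toMonoidHom ≠ ⊤ := by
  intro h1
  apply h.ne_top_left
  rw [← Subgroup.index_eq_one, ← index_map' e, h1, Subgroup.index_top]

omit [Finite G] in
theorem map_ne_top_right (h : Fac T X Y) (e : T ≃* K) : (Y.subgroupOf T).map e.toMonoidHom ≠ ⊤ :=
  map_ne_top_left h.symm e

/-- a `p`-primitive prime of `f c` is `≥ f c + 1` -/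
theorem lt_of_prim {p f c r : ℕ} (hp : 2 ≤ p) (h : Prim p (f * c) r) : f * c < r := by
  have h1 := mod_of_prim' hp h
  have h2 := Nat.le_of_dvd (by have := h.prime.two_le; omega) h1
  have := h.prime.two_le
  omega

/-- the outer automorphism group of an isomorphic group -/
theorem card_out_congr {S : Type u} {R : Type v} [Group S] [Group R] (e : S ≃* R) :
    Nat.card (Cfsg.Out S) = Nat.card (Cfsg.Out R) := by
  have hmap : (Cfsg.Inn S).map (MulAut.congr e : MulAut S ≃* MulAut R).toMonoidHom = Cfsg.Inn R := by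
    ext β
    constructor
    · rintro ⟨_, ⟨s, rfl⟩, rfl⟩
      refine ⟨e s, ?_⟩
      ext t
      simp [MulAut.congr]
    · rintro ⟨t, rfl⟩
      refine ⟨MulAut.conj (e.symm t), ⟨e.symm t, rfl⟩, ?_⟩
      ext x
      simp [MulAut.congr]
  exact Nat.card_congr (QuotientGroup.congr (Cfsg.Inn S) (Cfsg.Inn R) (MulAut.congr e) hmap).toEquiv

end Cfsg.Agent.H813.Rg
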